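import Cfsg.Agent.H73.Focal.Three.NonAb
import Cfsg.Agent.H20.PxQ
import Mathlib

/-! The case of abelian minimal centrally large subgroups. -/

set_option autoImplicit false
set_option linter.style.haveILetI false
set_option maxHeartbeats 1000000

namespace Cfsg.Agent.H73.Focal

open Subgroup
open Cfsg.Agent.H72 (IsMaxAb)
open Cfsg.Agent.H75.SL2Natural (xu yl ww)
open scoped commutatorElement

universe u

variable {G : Type u} [Group G] [Finite G] {p : ℕ} [Fact p.Prime] {F : Type} [Field F] [Fintype F] [CharP F p]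
variable {S : Sylow p G} {V X J T : Subgroup G} {φ : ↥X →* Matrix.SpecialLinearGroup (Fin 2) F}

namespace Ctx

variable (C : Ctx p S V X J T F φ)
include C

/-- The abelian subgroups of largest order of `S` have largest measure in `J`. -/
theorem maxAb_cd {Q₀ : Subgroup ↥J} (hQ₀ : Cfsg.IsMinimalCentrallyLarge Q₀) (hab : ⁅Q₀, Q₀⁆ = ⊥)
    {B : Subgroup G} (hB : IsMaxAb (S : Subgroup G) B) :
    Cfsg.IsCentralizerLarge (B.subgroupOf J) ∧
      centralizer ((B.subgroupOf J : Subgroup ↥J) : Set ↥J) = B.subgroupOf J := by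
  obtain ⟨hcd, hCQ⟩ := H74.centrallyLarge_iff.1 hQ₀.1
  have hQC : Q₀ ≤ centralizer (Q₀ : Set ↥J) := commutator_eq_bot_iff_le_centralizer.1 hab
  have hBJ := C.maxAb_le_J hB
  have hm : Nat.card Q₀ * Nat.card Q₀ = Cfsg.maxCentralizerProduct ↥J := by
    have h : Nat.card Q₀ * Nat.card ↥(centralizer (Q₀ : Set ↥J)) = _ := hcd
    rwa [le_antisymm hCQ hQC] at h
  have hge : Nat.card Q₀ ≤ Nat.card B := by
    rw [← card_map_of_injective (K := Q₀) J.subtype_injective]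
    refine hB.2.2 _ ((map_subtype_le _).trans C.hJS) ?_
    rintro _ ⟨a, ha, rfl⟩ _ ⟨b, hb, rfl⟩
    exact congrArg Subtype.val (mem_centralizer_iff.1 (hQC hb) a ha)
  have hC : J ⊓ centralizer (B : Set G) = B := by
    refine le_antisymm (fun g hg => IsMaxAb.mem hB (C.hJS hg.1) fun a ha => mem_centralizer_iff.1 hg.2 a ha)
      (le_inf hBJ fun a ha => mem_centralizer_iff.2 fun b hb => (hB.2.1 b hb a ha).eq)
  have hcent : centralizer ((B.subgroupOf J : Subgroup ↥J) : Set ↥J) = B.subgroupOf J := by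
    refine map_injective J.subtype_injective ?_
    rw [cent_map hBJ, hC, map_subgroupOf_eq_of_le hBJ]
  refine ⟨le_antisymm (H74.cdMeasure_le _) ?_, hcent⟩
  rw [hcent, card_subgroupOf hBJ, ← hm]
  exact Nat.mul_le_mul hge hge

/-- Descending from `o · z o z⁻¹` to `o`. -/
theorem half {L : Subgroup G} (hRL : ⁅Cfsg.pCore p G ⊓ X, pmIn φ⁆ ≤ L) (hXL : X ≤ normalizer (L : Set G))
    {z x o : G} (hzm : z ∈ pmIn φ) (hx : x ∈ X) (ho : o ∈ Cfsg.pCore p G ⊓ X)
    (h : ⁅x, o * (z * o * z⁻¹)⁆ ∈ L) : ⁅x, o⁆ ∈ L := by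
  have hzX : z ∈ X := map_subtype_le _ hzm
  have hr : ⁅o⁻¹, z⁆ ∈ L := hRL (commutator_mem_commutator (inv_mem ho) hzm)
  have h2 : ⁅x, o * o⁆ ∈ L := by
    rw [show o * o = o * (z * o * z⁻¹) * ⁅o⁻¹, z⁆⁻¹ by simp only [commutatorElement_def]; group]
    exact fix_mod_mul (hXL (X.mul_mem ho.2 (X.mul_mem (X.mul_mem hzX ho.2) (X.inv_mem hzX)))) h
      (comm_mem_of_normalizes (hXL hx) (inv_mem hr))
  obtain ⟨k, hk⟩ := C.hOp ⟨o, ho⟩
  obtain ⟨m, hm⟩ := exists_pow_eq_self_of_coprime (x := o) (n := 2)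
    (Nat.Coprime.coprime_dvd_right (orderOf_dvd_of_pow_eq_one (congrArg Subtype.val hk :))
      (((Nat.coprime_primes Nat.prime_two Fact.out).2 C.hp2.symm).pow_right k))
  refine triv_le (B := zpowers (o * o)) (zpowers_le.2 (X.mul_mem ho.2 ho.2)) hXL (s := {o * o})
    (fun b hb => ?_) (zpowers_eq_closure (o * o)).le o ?_
  · rw [Set.mem_singleton_iff.1 hb]; exact ⟨mem_zpowers _, h2⟩
  · rw [← pow_two]
    exact Eq.subst (motive := fun y => y ∈ zpowers (o ^ 2)) hm (pow_mem (mem_zpowers _) m)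

/-- The abelian case. -/
theorem triv_ab {Q₀ : Subgroup ↥J} (hQ₀ : Cfsg.IsMinimalCentrallyLarge Q₀) (hab : ⁅Q₀, Q₀⁆ = ⊥)
    (hJA : ¬ X ≤ normalizer (Cfsg.thompsonSubgroupAOf (S : Subgroup G) : Set G)) :
    Triv p X ⁅Cfsg.pCore p G ⊓ X, pmIn φ⁆ (Cfsg.pCore p G ⊓ X) := by
  classical
  haveI := C.d.Vn
  haveI := H19.pCore_normal p G
  set q := Fintype.card F
  obtain ⟨A, hA, a₀, ha₀A, ha₀⟩ : ∃ A, IsMaxAb (S : Subgroup G) A ∧ ∃ a : ↥X, (a : G) ∈ A ∧ φ a ≠ 1 := by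
    by_contra hno
    push Not at hno
    have hle : Cfsg.thompsonSubgroupAOf (S : Subgroup G) ≤ J ⊓ kerIn φ := by
      rw [H72.thompsonSubgroupAOf_eq]
      exact sSup_le fun A hA => le_inf (C.maxAb_le_J hA) fun a ha =>
        mem_kerIn.2 ⟨C.hJX (C.maxAb_le_J hA ha), hno A hA ⟨a, C.hJX (C.maxAb_le_J hA ha)⟩ ha⟩
    refine hJA ?_
    rw [← H72.thompsonSubgroupAOf_eq_of_le (inf_le_left.trans C.hJS) hle]
    exact C.P0_normal.trans (H72.normalizer_le_normalizer_thompsonSubgroupAOf _)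
  have hAJ := C.maxAb_le_J hA
  have hAX : A ≤ X := hAJ.trans C.hJX
  have himg : (A.subgroupOf X).map φ = H1.upperUni F :=
    eq_of_le_of_card_ge (C.img_le hAJ) (by rw [C.facts.full A hA a₀ ha₀A ha₀ hAX, H1.card_upperUni])
  have hAxu : ∀ c : F, ∃ a : ↥X, (a : G) ∈ A ∧ φ a = xu c := fun c => by
    have h : xu c ∈ (A.subgroupOf X).map φ := himg.symm ▸ mem_upperUni_iff.2 ⟨c, rfl⟩
    obtain ⟨a, ha, e⟩ := h
    exact ⟨a, ha, e⟩
  set O := Cfsg.pCore p G ⊓ X with hOdef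
  have hOX : O ≤ X := inf_le_right
  have hOJ : O ≤ J := C.hQJ
  have hOC : O ≤ centralizer (V : Set G) := inf_le_left.trans C.d.QC
  set A₀ := A ⊓ centralizer (V : Set G) with hA₀
  set E := A₀ ⊔ V with hE
  have hEO : E ≤ O := sup_le (by rw [hOdef, C.hO]; exact inf_le_inf_right _ hAJ) C.hVO
  have hEab : ∀ a ∈ E, ∀ b ∈ E, Commute a b := by
    have h : E ≤ centralizer (E : Set G) := by
      rw [hE, H34.centralizer_sup_eq]
      refine sup_le (le_inf (fun a ha => mem_centralizer_iff.2 fun b hb => (hA.2.1 b hb.1 a ha.1).eq) inf_le_right)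
        (le_inf (le_centralizer_iff.1 inf_le_right) fun v hv => mem_centralizer_iff.2 fun w hw => C.d.comm w hw v hv)
    exact fun a ha b hb => mem_centralizer_iff.1 (h hb) a ha
  have hEmax : IsMaxAb (S : Subgroup G) E := by
    refine ⟨(hEO.trans hOJ).trans C.hJS, hEab, fun B hB hBc => (hA.2.2 B hB hBc).trans ?_⟩
    have h1 := H75.card_mul_card_le A₀ V
    have h2 := C.facts.exact A hA
    have h3 : Nat.card ↥(A₀ ⊓ V) ≤ Nat.card ↥(V ⊓ centralizer (A : Set G)) := card_le_of_le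
      (le_inf inf_le_right fun v hv => mem_centralizer_iff.2 fun a ha => (hA.2.1 a ha v hv.1.1).eq)
    refine Nat.le_of_mul_le_mul_right ?_ (Nat.card_pos : 0 < Nat.card ↥(V ⊓ centralizer (A : Set G)))
    rw [← h2, mul_comm (Nat.card V), mul_comm (Nat.card E)]
    exact h1.trans (Nat.mul_le_mul_right _ h3)
  -- the conjugates
  let Ex : G → Subgroup G := fun g => E.map (MulAut.conj g).toMonoidHom
  have hExO : ∀ g ∈ X, Ex g ≤ O := fun g hg => by
    rw [hOdef, ← mem_normalizer_iff_map_conj_eq.1 (C.hOn hg)]; exact map_mono hEO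
  have hExmax : ∀ g ∈ X, IsMaxAb (S : Subgroup G) (Ex g) := fun g hg => by
    refine ⟨((hExO g hg).trans hOJ).trans C.hJS, ?_, fun B hB hBc => ?_⟩
    · rintro _ ⟨a, ha, rfl⟩ _ ⟨b, hb, rfl⟩
      exact (hEab a ha b hb).map _
    · rw [card_map_of_injective (MulAut.conj g).injective]
      exact hEmax.2.2 B hB hBc
  have hEx1 : Ex 1 = E := by
    ext y
    simp [Ex]
  have hExmem : ∀ {g e : G}, e ∈ E → g * e * g⁻¹ ∈ Ex g := fun {g e} he => ⟨e, he, rfl⟩
  set Y : Subgroup G := ⨆ g : ↥X, Ex g with hY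
  have hExY : ∀ g ∈ X, Ex g ≤ Y := fun g hg => le_iSup (fun h : ↥X => Ex h) ⟨g, hg⟩
  have hEY : E ≤ Y := hEx1 ▸ hExY 1 X.one_mem
  have hYO : Y ≤ O := iSup_le fun g => hExO g g.2
  have hXY : X ≤ normalizer (Y : Set G) := fun g hg => mem_normalizer_iff_map_conj_eq.2
    (eq_of_le_of_card_ge (by
      rw [hY, Subgroup.map_iSup]
      refine iSup_le fun h => le_trans (le_of_eq ?_) (hExY (g * h) (X.mul_mem hg h.2))
      ext y
      simp [Ex, map_map, mul_assoc]) (card_map_of_injective (MulAut.conj g).injective).ge)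
  -- the intersection
  obtain ⟨I', hI'mem, hI'C⟩ : ∃ I' : Subgroup ↥J, (∀ y : ↥J, y ∈ I' ↔ ∀ g : ↥X, (y : G) ∈ Ex g) ∧
      centralizer (I' : Set ↥J) ≤ Y.subgroupOf J := by
    haveI : Fintype ↥X := Fintype.ofFinite _
    suffices h : ∀ s : Finset ↥X, ∃ I' : Subgroup ↥J, Cfsg.IsCentralizerLarge I' ∧
        (∀ y : ↥J, y ∈ I' ↔ (y : G) ∈ E ∧ ∀ g ∈ s, (y : G) ∈ Ex g) ∧
        centralizer (I' : Set ↥J) ≤ Y.subgroupOf J by
      obtain ⟨I', -, h1, h2⟩ := h Finset.univ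
      refine ⟨I', fun y => (h1 y).trans ⟨fun h g => h.2 g (Finset.mem_univ g), fun h => ⟨?_, fun g _ => h g⟩⟩, h2⟩
      exact hEx1 ▸ h ⟨1, X.one_mem⟩
    intro s
    induction s using Finset.induction with
    | empty =>
      obtain ⟨h1, h2⟩ := C.maxAb_cd hQ₀ hab hEmax
      exact ⟨_, h1, fun y => by simp [mem_subgroupOf], h2.le.trans fun y hy => hEY hy⟩
    | @insert g s _ ih =>
      obtain ⟨I', h1, h2, h3⟩ := ih
      obtain ⟨k1, k2⟩ := C.maxAb_cd hQ₀ hab (hExmax g g.2)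
      obtain ⟨-, hinf, -, hc, -⟩ := H74.cd_sup_inf h1 k1
      refine ⟨_, hinf, fun y => ?_, ?_⟩
      · rw [mem_inf, h2, mem_subgroupOf]
        constructor
        · rintro ⟨⟨e1, e2⟩, e3⟩
          refine ⟨e1, fun k hk => ?_⟩
          rcases Finset.mem_insert.1 hk with rfl | hk
          · exact e3
          · exact e2 k hk
        · exact fun ⟨e1, e2⟩ => ⟨⟨e1, fun k hk => e2 k (Finset.mem_insert_of_mem hk)⟩,
            e2 g (Finset.mem_insert_self g s)⟩
      · rw [hc, k2]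
        exact sup_le h3 fun y hy => hExY g g.2 hy
  set I := I'.map J.subtype with hI
  have hIE : I ≤ E := by
    rintro _ ⟨y, hy, rfl⟩
    exact hEx1 ▸ (hI'mem y).1 hy ⟨1, X.one_mem⟩
  have hIconj : ∀ g ∈ X, ∀ i ∈ I, g * i * g⁻¹ ∈ I := by
    rintro g hg _ ⟨y, hy, rfl⟩
    have hmem : ∀ h : ↥X, g * (y : G) * g⁻¹ ∈ Ex h := fun h => by
      obtain ⟨e, he, e'⟩ := (hI'mem y).1 hy ⟨g⁻¹ * h, X.mul_mem (X.inv_mem hg) h.2⟩
      refine ⟨e, he, ?_⟩
      simp only [MulEquiv.coe_toMonoidHom, MulAut.conj_apply] at e' ⊢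
      rw [← e']; group
    exact ⟨⟨g * y * g⁻¹, hOJ (hYO (hExY 1 X.one_mem (hmem ⟨1, X.one_mem⟩)))⟩, (hI'mem _).2 hmem, rfl⟩
  -- centralisers modulo `V`
  let π := QuotientGroup.mk' V
  have hcommV : ∀ a b : G, π a * π b = π b * π a → ⁅a, b⁆ ∈ V := fun a b h =>
    (QuotientGroup.eq_one_iff _).1 (show π ⁅a, b⁆ = 1 by
      rw [map_commutatorElement, commutatorElement_eq_one_iff_mul_comm]; exact h)
  have hAE : ∀ a ∈ A, ∀ e ∈ E, ⁅a, e⁆ ∈ V := fun a ha e he => by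
    refine hcommV a e ?_
    have hle : E ≤ (centralizer ({π a} : Set (G ⧸ V))).comap π := sup_le
      (fun b hb => mem_comap.2 (mem_centralizer_singleton_iff.2 (by
        rw [← map_mul, ← map_mul, (hA.2.1 a ha b hb.1).eq])))
      fun v hv => mem_comap.2 (mem_centralizer_singleton_iff.2 (by
        rw [show π v = 1 from (QuotientGroup.eq_one_iff v).2 hv, one_mul, mul_one]))
    exact (mem_centralizer_singleton_iff.1 (hle he)).symm
  set Cb := (centralizer ((I.map π : Subgroup (G ⧸ V)) : Set (G ⧸ V))).comap π with hCb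
  have hmemCb : ∀ g, g ∈ Cb ↔ ∀ i ∈ I, ⁅i, g⁆ ∈ V := fun g => by
    rw [hCb, mem_comap, mem_centralizer_iff]
    constructor
    · exact fun h i hi => hcommV i g (h (π i) (mem_map_of_mem π hi))
    · rintro h _ ⟨i, hi, rfl⟩
      refine commutatorElement_eq_one_iff_mul_comm.1 ?_
      rw [← map_commutatorElement]
      exact (QuotientGroup.eq_one_iff _).2 (h i hi)
  have hXCb : X ≤ normalizer (Cb : Set G) := fun g hg => mem_normalizer_iff_map_conj_eq.2
    (eq_of_le_of_card_ge (by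
      rintro _ ⟨c, hc, rfl⟩
      refine (hmemCb _).2 fun i hi => ?_
      have h1 := (hmemCb c).1 hc _ (hIconj g⁻¹ (X.inv_mem hg) i hi)
      have h2 := (inferInstance : V.Normal).conj_mem _ h1 g
      simpa [commutatorElement_def, mul_assoc] using h2)
      (card_map_of_injective (MulAut.conj g).injective).ge)
  have hcopCb : ∀ x ∈ X, (orderOf x).Coprime p → x ∈ Cb := fun x hx hxp =>
    (C.mem_of_normal (D := X ⊓ Cb) inf_le_left (le_normalizer_inf' le_normalizer hXCb) (a := a₀)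
      (hAJ ha₀A) ⟨a₀.2, (hmemCb _).2 fun i hi => by
        rw [← commutatorElement_inv]; exact inv_mem (hAE _ ha₀A i (hIE hi))⟩ ha₀ hx hxp).2
  set B₁ := O ⊓ Cb with hB₁
  have hXB₁ : X ≤ normalizer (B₁ : Set G) := le_normalizer_inf' C.hOn hXCb
  set R₁ := ⁅O, pmIn φ⁆ with hR₁
  have ht3 : Triv p X B₁ O := fun x hx hxp o ho => by
    refine ⟨comm_mem_of_normalizes (C.hOn hx) ho, ?_⟩
    rw [show ⁅x, o⁆ = x * (o * x⁻¹ * o⁻¹) by simp only [commutatorElement_def]; group]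
    exact Cb.mul_mem (hcopCb x hx hxp) ((mem_normalizer_iff.1 (hXCb (hOX ho)) x⁻¹).1 (Cb.inv_mem (hcopCb x hx hxp)))
  obtain ⟨z, hzp, hz⟩ := C.exists_z
  have hzm : (z : G) ∈ pmIn φ := mem_pmIn.2 ⟨z.2, Or.inr hz⟩
  have hzC : (z : G) * (z : G) ∈ centralizer (V : Set G) := by
    refine C.facts.cop_C (z * z) ?_ (by rw [map_mul, hz, neg_mul_neg, mul_one])
    refine Nat.Coprime.coprime_dvd_left ?_ hzp
    rw [Subgroup.orderOf_coe, Subgroup.orderOf_coe, ← pow_two]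
    exact orderOf_pow_dvd 2
  have hzz : ∀ v ∈ V, (z : G) * ((z : G) * v * (z : G)⁻¹) * (z : G)⁻¹ = v := fun v hv => by
    rw [show (z : G) * ((z : G) * v * (z : G)⁻¹) * (z : G)⁻¹ = ((z : G) * z) * v * ((z : G) * z)⁻¹ by group,
      ← mem_centralizer_iff.1 hzC v hv, mul_inv_cancel_right]
  -- the layer below `B₁`
  set L := Y ⊔ R₁ with hL
  have hXL : X ≤ normalizer (L : Set G) := le_normalizer_sup' hXY C.R1_normal
  have hmulI : ∀ i ∈ I, ∀ a ∈ B₁, ∀ b ∈ B₁, ⁅i, a * b⁆ = ⁅i, a⁆ * ⁅i, b⁆ := fun i hi a ha b hb => by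
    have hv := (hmemCb b).1 hb.2 i hi
    calc ⁅i, a * b⁆ = ⁅i, a⁆ * (a * ⁅i, b⁆ * a⁻¹) := by simp only [commutatorElement_def]; group
      _ = _ := by rw [← mem_centralizer_iff.1 (hOC ha.1) _ hv, mul_inv_cancel_right]
  have hconjI : ∀ g ∈ X, g ∈ Cb → ∀ i ∈ I, ∀ o ∈ B₁, g * ⁅i, o⁆ * g⁻¹ = ⁅i, g * o * g⁻¹⁆ :=
    fun g hg hgC i hi o ho => by
      have hw : ⁅i⁻¹, g⁆ ∈ V := (hmemCb g).1 hgC _ (I.inv_mem hi)
      have hgo : g * o * g⁻¹ ∈ O := ((mem_normalizer_iff.1 (C.hOn hg) o).1 ho.1)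
      calc g * ⁅i, o⁆ * g⁻¹ = ⁅i * ⁅i⁻¹, g⁆, g * o * g⁻¹⁆ := by simp only [commutatorElement_def]; group
        _ = i * (⁅⁅i⁻¹, g⁆, g * o * g⁻¹⁆) * i⁻¹ * ⁅i, g * o * g⁻¹⁆ := by simp only [commutatorElement_def]; group
        _ = ⁅i, g * o * g⁻¹⁆ := by
            rw [commutatorElement_eq_one_iff_mul_comm.2 (mem_centralizer_iff.1 (hOC hgo) _ hw)]; group
  have ht2 : Triv p X L B₁ := fun x hx hxp o ho => by
    have hzo : (z : G) * o * (z : G)⁻¹ ∈ B₁ := (mem_normalizer_iff.1 (hXB₁ z.2) o).1 ho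
    set o₂ := o * ((z : G) * o * (z : G)⁻¹) with ho₂def
    have ho₂ : o₂ ∈ B₁ := B₁.mul_mem ho hzo
    have hxo : ⁅x, o₂⁆ ∈ B₁ := comm_mem_of_normalizes (hXB₁ hx) ho₂
    refine C.half (le_sup_right) hXL hzm hx ho.1 (mem_sup_left ?_)
    suffices h : (⟨⁅x, o₂⁆, hOJ hxo.1⟩ : ↥J) ∈ centralizer (I' : Set ↥J) from hI'C h
    refine mem_centralizer_iff.2 fun y hy => Subtype.ext (commutatorElement_eq_one_iff_mul_comm.1 ?_)
    show ⁅(y : G), ⁅x, o₂⁆⁆ = 1
    set i := (y : G)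
    have hi : i ∈ I := mem_map_of_mem _ hy
    set v := ⁅i, o₂⁆
    have hvV : v ∈ V := (hmemCb _).1 ho₂.2 i hi
    have hvfix : (z : G) * v * (z : G)⁻¹ = v := by
      have e : v = ⁅i, o⁆ * ⁅i, (z : G) * o * (z : G)⁻¹⁆ := hmulI i hi o ho _ hzo
      have e1 : ⁅i, (z : G) * o * (z : G)⁻¹⁆ = (z : G) * ⁅i, o⁆ * (z : G)⁻¹ :=
        (hconjI z z.2 (hcopCb z z.2 hzp) i hi o ho).symm
      have hm : ⁅i, o⁆ ∈ V := (hmemCb o).1 ho.2 i hi
      rw [e, e1, show (z : G) * (⁅i, o⁆ * ((z : G) * ⁅i, o⁆ * (z : G)⁻¹)) * (z : G)⁻¹ =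
        ((z : G) * ⁅i, o⁆ * (z : G)⁻¹) * ((z : G) * ((z : G) * ⁅i, o⁆ * (z : G)⁻¹) * (z : G)⁻¹) by group,
        hzz _ hm]
      exact C.d.comm _ ((inferInstance : V.Normal).conj_mem _ hm _) _ hm
    have hxv : x * v * x⁻¹ = v :=
      mul_inv_eq_one.1 (C.facts.cop_fix z hz v hvV hvfix ⟨x, hx⟩ hxp)
    have e2 := hmulI i hi _ hxo _ ho₂
    rw [show ⁅x, o₂⁆ * o₂ = x * o₂ * x⁻¹ by simp only [commutatorElement_def]; group,
      ← hconjI x hx (hcopCb x hx hxp) i hi o₂ ho₂, hxv] at e2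
    exact right_eq_mul.1 e2
  -- the layer `V`
  set L₁ := V ⊔ R₁ with hL₁
  have hXL₁ : X ≤ normalizer (L₁ : Set G) := le_normalizer_sup' C.hVn C.R1_normal
  have ht0 : Triv p X R₁ L₁ := fun x hx hxp b hb => by
    refine triv_le (B := L₁) (sup_le (C.hVO.trans hOX) (C.R1_le_O.trans hOX)) C.R1_normal
      (s := (V : Set G) ∪ R₁) ?_ (sup_le (fun v hv => subset_closure (Or.inl hv))
        fun r hr => subset_closure (Or.inr hr)) b hb
    rintro c (hc | hc)
    · refine ⟨mem_sup_left hc, C.half le_rfl C.R1_normal hzm hx (C.hVO hc) ?_⟩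
      have hm := (inferInstance : V.Normal).conj_mem c hc (z : G)
      rw [C.facts.cop_fix z hz _ (V.mul_mem hc hm) ?_ ⟨x, hx⟩ hxp]
      · exact one_mem _
      · rw [show (z : G) * (c * ((z : G) * c * (z : G)⁻¹)) * (z : G)⁻¹ =
          ((z : G) * c * (z : G)⁻¹) * ((z : G) * ((z : G) * c * (z : G)⁻¹) * (z : G)⁻¹) by group, hzz c hc]
        exact C.d.comm _ hm _ hc
    · exact ⟨mem_sup_right hc, comm_mem_of_normalizes (C.R1_normal hx) hc⟩
  -- the layer `Y`
  set R' := (R₁ ⊓ Y) ⊔ V with hR'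
  have hVY : V ≤ Y := le_sup_right.trans hEY
  have hR'Y : R' ≤ Y := sup_le inf_le_right hVY
  have hXR' : X ≤ normalizer (R' : Set G) := le_normalizer_sup' (le_normalizer_inf' C.R1_normal hXY) C.hVn
  have hY' : ∀ x ∈ X, (orderOf x).Coprime p → ∀ y ∈ Y, ⁅x, y⁆ ∈ R' := by
    have hYX : Y ≤ X := hYO.trans hOX
    set Y' := Y.subgroupOf X with hY'def
    set N' := R'.subgroupOf X with hN'def
    haveI : Y'.Normal := (normal_subgroupOf_iff_le_normalizer hYX).2 hXY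
    haveI : N'.Normal := (normal_subgroupOf_iff_le_normalizer (hR'Y.trans hYX)).2 hXR'
    let π' := QuotientGroup.mk' N'
    set K := Y'.map π' with hK
    haveI : K.Normal := (inferInstance : Y'.Normal).map π' (QuotientGroup.mk'_surjective N')
    set Φ := (frattini ↥K).map K.subtype
    haveI : Φ.Normal := ConjAct.normal_of_characteristic_of_normal
    have hKp : IsPGroup p K := ((C.hOp.to_le hYO).comap_subtype).map π'
    set W := Y' ⊓ Φ.comap π' with hW
    have hN'W : N' ≤ W := fun w hw => ⟨hR'Y hw, mem_comap.2 (by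
      rw [show π' w = 1 from (QuotientGroup.eq_one_iff w).2 hw]; exact one_mem _)⟩
    let mkK : ↥Y' → ↥K := fun a => ⟨π' a, mem_map_of_mem π' a.2⟩
    obtain ⟨g, hg⟩ := C.facts.surj ww
    -- normalisation by the abelian subgroup
    have hAnorm : ∀ y ∈ X, ∀ a ∈ A, a ∈ normalizer ((E ⊔ Ex y : Subgroup G) : Set G) := by
      intro y hy a ha
      refine mem_normalizer_iff_map_conj_eq.2 (eq_of_le_of_card_ge ?_
        (card_map_of_injective (MulAut.conj a).injective).ge)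
      rw [Subgroup.map_sup]
      refine sup_le ?_ ?_
      · rintro _ ⟨e, he, rfl⟩
        show a * e * a⁻¹ ∈ _
        rw [show a * e * a⁻¹ = ⁅a, e⁆ * e by simp only [commutatorElement_def]; group]
        exact mem_sup_left (E.mul_mem (mem_sup_right (hAE a ha e he)) he)
      · rintro _ ⟨n, hn, rfl⟩
        show a * n * a⁻¹ ∈ _
        obtain ⟨-, -, hset, -⟩ := H74.cd_sup_inf (C.maxAb_cd hQ₀ hab hA).1
          (C.maxAb_cd hQ₀ hab (hExmax y hy)).1
        have hnJ : n ∈ J := hOJ (hExO y hy hn)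
        have h1 : (⟨a, hAJ ha⟩ * ⟨n, hnJ⟩ * ⟨a, hAJ ha⟩⁻¹ : ↥J) ∈
            A.subgroupOf J ⊔ (Ex y).subgroupOf J :=
          mul_mem (mul_mem (mem_sup_left ha) (mem_sup_right hn)) (inv_mem (mem_sup_left ha))
        rw [← SetLike.mem_coe, hset] at h1
        obtain ⟨a', ha', n', hn', e⟩ := h1
        have e' : (a' : G) * (n' : G) = a * n * a⁻¹ := congrArg Subtype.val e
        have hn'O : (n' : G) ∈ Ex y := hn'
        have ha'C : (a' : G) ∈ centralizer (V : Set G) := by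
          rw [show (a' : G) = a * n * a⁻¹ * (n' : G)⁻¹ by rw [← e', mul_inv_cancel_right]]
          exact Subgroup.mul_mem _ ((inferInstance : (centralizer (V : Set G)).Normal).conj_mem n (hOC (hExO y hy hn)) a)
            (Subgroup.inv_mem _ (hOC (hExO y hy hn'O)))
        rw [← e']
        exact mul_mem (mem_sup_left (mem_sup_left ⟨ha', ha'C⟩)) (mem_sup_right hn'O)
    set E' := E.subgroupOf X with hE'def
    set E2 := (Ex g).subgroupOf X with hE2def
    set K3 := E' ⊔ E2 ⊔ W with hK3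
    have hEX : E ≤ X := hEO.trans hOX
    have hK3Y : K3 ≤ Y' := sup_le (sup_le (fun e he => hEY he) fun e he => hExY g g.2 he) inf_le_left
    have hk : ∀ k : ↥X, φ k = 1 ∨ φ k = -1 → ∀ w ∈ Y', ⁅k, w⁆ ∈ W := fun k hk w hw => hN'W (by
      show ⁅(k : G), (w : G)⁆ ∈ R'
      refine mem_sup_left (mem_inf.2 ⟨?_, comm_mem_of_normalizes (hXY k.2) hw⟩)
      rw [← commutatorElement_inv]
      exact inv_mem (commutator_mem_commutator (hYO hw) (mem_pmIn.2 ⟨k.2, hk⟩)))
    have hmemnorm : ∀ a : ↥X, (a : G) ∈ normalizer ((E ⊔ Ex g : Subgroup G) : Set G) →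
        a ∈ normalizer (K3 : Set ↥X) := by
      intro a ha
      have hle : E ⊔ Ex g ≤ X := sup_le hEX ((hExO g g.2).trans hOX)
      refine (le_normalizer_sup' (X := zpowers a) ?_ ?_) (mem_zpowers a)
      · refine zpowers_le.2 (mem_normalizer_iff.2 fun w => ?_)
        rw [hE'def, hE2def, ← subgroupOf_sup hEX ((hExO g g.2).trans hOX)]
        exact mem_normalizer_iff.1 ha (w : G)
      · exact le_top.trans (normalizer_eq_top_iff.2 inferInstance).ge
    have hK3n : K3.Normal := by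
      have htop : (normalizer (K3 : Set ↥X)).map φ = ⊤ := by
        refine upper_lower_gen (fun c => ?_) fun c => ?_
        · obtain ⟨a, ha, e⟩ := hAxu c
          exact ⟨a, hmemnorm a (hAnorm g g.2 a ha), e⟩
        · obtain ⟨a, ha, e⟩ := hAxu (-c)
          refine ⟨g * a * g⁻¹, hmemnorm _ ?_, ?_⟩
          · have h0 := hAnorm (g : G)⁻¹ (X.inv_mem g.2) a ha
            have hcv : (E ⊔ Ex (g : G)⁻¹).map (MulAut.conj (g : G)).toMonoidHom = E ⊔ Ex g := by
              rw [Subgroup.map_sup, sup_comm]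
              congr 1
              ext y
              simp [Ex, map_map, mul_assoc]
            rw [← hcv]
            exact le_normalizer_map _ ⟨a, h0, rfl⟩
          · rw [map_mul, map_mul, map_inv, hg, e, H75.SL2Natural.ww_xu, neg_neg, mul_inv_cancel_right]
      refine normalizer_eq_top_iff.1 (eq_top_iff.2 fun x _ => ?_)
      obtain ⟨d, hd, e⟩ := (htop.ge (mem_top (φ x)) : φ x ∈ (normalizer (K3 : Set ↥X)).map φ)
      have hk' : d⁻¹ * x ∈ normalizer (K3 : Set ↥X) := mem_normalizer_iff_map_conj_eq.2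
        (eq_of_le_of_card_ge (by
          rintro _ ⟨w, hw, rfl⟩
          show (d⁻¹ * x) * w * (d⁻¹ * x)⁻¹ ∈ K3
          have := K3.mul_mem (mem_sup_right (hk (d⁻¹ * x) (Or.inl (by
            rw [map_mul, map_inv, e, inv_mul_cancel])) w (hK3Y hw)) : _ ∈ K3) hw
          simpa [commutatorElement_def] using this)
          (card_map_of_injective (MulAut.conj (d⁻¹ * x)).injective).ge)
      have := mul_mem hd hk'
      rwa [mul_inv_cancel_left] at this
    have hgen : Y' ≤ K3 := by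
      haveI := hK3n
      have hle : Y ≤ K3.map X.subtype := iSup_le fun y => by
        rintro _ ⟨e, he, rfl⟩
        exact ⟨y * ⟨e, hEX he⟩ * y⁻¹, hK3n.conj_mem _ (mem_sup_left (mem_sup_left he)) _, rfl⟩
      exact fun w hw => by
        obtain ⟨w', hw', e⟩ := hle hw
        rwa [Subtype.ext e (a2 := w)] at hw'
    have hh := sect_halves C.hp2 φ C.facts.surj Y' W
      (fun a ha b hb => ⟨by rw [commutatorElement_def]; exact Y'.mul_mem (Y'.mul_mem (Y'.mul_mem ha hb) (Y'.inv_mem ha)) (Y'.inv_mem hb),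
        mem_comap.2 ⟨⁅mkK ⟨a, ha⟩, mkK ⟨b, hb⟩⁆,
          H24.commutator_le_frattini hKp (commutator_mem_commutator (mem_top _) (mem_top _)),
          (map_commutatorElement π' a b).symm⟩⟩)
      (fun a ha => ⟨pow_mem ha p, mem_comap.2 ⟨mkK ⟨a, ha⟩ ^ p, H24.pow_mem_frattini hKp _,
        (map_pow π' a p).symm⟩⟩) hk
      (E := E') (E' := E2) (fun e he => hEY he) (fun e he => hExY g g.2 he) hgen
      (fun c => by
        obtain ⟨a, ha, e⟩ := hAxu c
        exact ⟨a, e, fun w hw => hN'W (mem_sup_right (hAE a ha (w : G) hw) : (⁅a, w⁆ : ↥X) ∈ N')⟩)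
      (fun c => by
        obtain ⟨a, ha, e⟩ := hAxu (-c)
        refine ⟨g * a * g⁻¹, by rw [map_mul, map_mul, map_inv, hg, e, H75.SL2Natural.ww_xu, neg_neg,
          mul_inv_cancel_right], fun w hw => hN'W (mem_sup_right ?_ : (⁅g * a * g⁻¹, w⁆ : ↥X) ∈ N')⟩
        obtain ⟨e₀, he₀, hwe⟩ := hw
        have hV' := (inferInstance : V.Normal).conj_mem _ (hAE a ha e₀ he₀) (g : G)
        show ⁅((g : G) * a * (g : G)⁻¹), (w : G)⁆ ∈ V
        rw [show (w : G) = (g : G) * e₀ * (g : G)⁻¹ from hwe.symm]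
        simpa [commutatorElement_def, mul_assoc] using hV')
    intro x hx hxp y hy
    set xb := π' ⟨x, hx⟩
    have hord : (orderOf xb).Coprime p := Nat.Coprime.coprime_dvd_left (by
      rw [← Subgroup.orderOf_mk x hx]; exact orderOf_map_dvd _ _) hxp
    obtain ⟨k, hk'⟩ := IsPGroup.iff_card.1 (hKp.to_subgroup (frattini ↥K))
    have hcent := H20.le_centralizer_of_trivial_on_frattini (A := zpowers xb) (K := K)
      (le_top.trans (normalizer_eq_top_iff.2 inferInstance).ge)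
      (by rw [Nat.card_zpowers, hk']; exact hord.pow_right k)
      (fun a ha b hb => by
        obtain ⟨n, rfl⟩ := ha
        obtain ⟨w, hw, rfl⟩ := hb
        have := mem_comap.1 (hh (⟨x, hx⟩ ^ n) w hw).2
        rw [map_commutatorElement, map_zpow, commutatorElement_def] at this
        exact this)
    have e := mem_centralizer_iff.1 (hcent (mem_zpowers xb)) (π' ⟨y, hYX hy⟩) (mem_map_of_mem π' hy)
    have e2 : π' ⁅(⟨x, hx⟩ : ↥X), ⟨y, hYX hy⟩⁆ = 1 := by
      rw [map_commutatorElement, commutatorElement_eq_one_iff_mul_comm]; exact e.symm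
    exact ((QuotientGroup.eq_one_iff _).1 e2 : (⁅(⟨x, hx⟩ : ↥X), ⟨y, hYX hy⟩⁆) ∈ N')
  have ht1 : Triv p X L₁ L := fun x hx hxp b hb => by
    refine triv_le (B := L) (sup_le (hYO.trans hOX) (C.R1_le_O.trans hOX)) hXL₁
      (s := (Y : Set G) ∪ R₁) ?_ (sup_le (fun v hv => subset_closure (Or.inl hv))
        fun r hr => subset_closure (Or.inr hr)) b hb
    rintro c (hc | hc)
    · exact ⟨mem_sup_left hc, (sup_le (inf_le_left.trans le_sup_right) le_sup_left : R' ≤ L₁) (hY' x hx hxp c hc)⟩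
    · exact ⟨mem_sup_right hc, mem_sup_right (comm_mem_of_normalizes (C.R1_normal hx) hc)⟩
  have hLO : L ≤ O := sup_le hYO C.R1_le_O
  exact triv_trans C.hOp hOX le_rfl C.R1_le_O C.R1_normal C.hOn
    (triv_trans C.hOp hOX inf_le_left C.R1_le_O C.R1_normal C.hOn
      (triv_trans C.hOp hOX hLO C.R1_le_O C.R1_normal C.hOn ht0 ht1) ht2) ht3

end Ctx

end Cfsg.Agent.H73.Focal
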