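import Cfsg.Agent.H73.Focal.Three.NonAb
import Cfsg.Agent.H73.GN.Main
import Cfsg.Agent.H73.GN.Transport
import Cfsg.Prelude.Def_ConjugacyFunctors
import Mathlib

/-! The functor of the focal subgroup theorem for `p = 3`. -/

set_option autoImplicit false

namespace Cfsg.Agent.H73.Focal

open Subgroup
open scoped commutatorElement

universe u

/-- The derived subgroup of the minimal centrally large subgroups of `J̃(Q)`. -/
def derMCL (Q : Type u) [Group Q] : Subgroup Q :=
  (⨆ R : {R : Subgroup ↥(GN.jTilde Q) // Cfsg.IsMinimalCentrallyLarge R},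
    ⁅(R : Subgroup ↥(GN.jTilde Q)), (R : Subgroup ↥(GN.jTilde Q))⁆).map (GN.jTilde Q).subtype

/-- `Z(J(Q))` inside `Q`. -/
def zjFun (Q : Type u) [Group Q] : Subgroup Q :=
  Cfsg.thompsonSubgroupA Q ⊓ centralizer (Cfsg.thompsonSubgroupA Q : Set Q)

/-- The derived subgroup of a minimal centrally large subgroup of `J̃(Q)` if it is not trivial, else `Z(J(Q))`. -/
noncomputable def kFun (Q : Type u) [Group Q] : Subgroup Q :=
  open scoped Classical in if derMCL Q = ⊥ then zjFun Q else derMCL Q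

variable {Q R : Type u} [Group Q] [Group R]

theorem zjFun_equiv (φ : Q ≃* R) : (zjFun Q).map φ.toMonoidHom = zjFun R := by
  rw [zjFun, zjFun, Subgroup.map_inf _ _ φ.toMonoidHom φ.injective, GN.map_centralizer_equiv,
    H35.thompsonSubgroupA_map_equiv]

theorem jTilde_equiv (φ : Q ≃* R) : (GN.jTilde Q).map φ.toMonoidHom = GN.jTilde R :=
  (GN.map_centralizer_equiv φ _).trans
    (congrArg (fun H : Subgroup R => centralizer (H : Set R)) (zjFun_equiv φ))

theorem derMCL_equiv (φ : Q ≃* R) : (derMCL Q).map φ.toMonoidHom = derMCL R := by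
  have key : ∀ {A B : Type u} [Group A] [Group B] (ψ : A ≃* B), (derMCL A).map ψ.toMonoidHom ≤ derMCL B := by
    intro A B _ _ ψ
    let e : ↥(GN.jTilde A) ≃* ↥(GN.jTilde B) :=
      (ψ.subgroupMap (GN.jTilde A)).trans (MulEquiv.subgroupCongr (jTilde_equiv ψ))
    rw [derMCL, map_map, show ψ.toMonoidHom.comp (GN.jTilde A).subtype =
      (GN.jTilde B).subtype.comp e.toMonoidHom from MonoidHom.ext fun x => rfl, ← map_map, Subgroup.map_iSup]
    refine map_mono (iSup_le fun P => ?_)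
    rw [map_commutator]
    exact le_iSup (fun R : {R : Subgroup ↥(GN.jTilde B) // Cfsg.IsMinimalCentrallyLarge R} =>
      ⁅(R : Subgroup ↥(GN.jTilde B)), (R : Subgroup ↥(GN.jTilde B))⁆) ⟨_, GN.minimal_equiv e P.2⟩
  refine le_antisymm (key φ) ?_
  have := map_mono (f := φ.toMonoidHom) (key φ.symm)
  rwa [GN.map_symm_map] at this

theorem center_le_zjFun [Finite Q] : center Q ≤ zjFun Q := by
  obtain ⟨A, hA, hmax⟩ := Set.exists_max_image {A : Subgroup Q | IsMulCommutative A} (fun A => Nat.card A)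
    (Set.toFinite _) ⟨⊥, inferInstanceAs (IsMulCommutative (⊥ : Subgroup Q))⟩
  intro z hz
  refine ⟨?_, center_le_centralizer _ hz⟩
  have hB := H35.isMulCommutative_sup_zpowers (z := z) hA fun a _ => Subgroup.mem_center_iff.1 hz a
  have hzA := H35.mem_of_card_max le_sup_left (hmax _ hB) (mem_sup_right (mem_zpowers z))
  exact (le_sSup (show A ∈ Cfsg.maxAbelianSubgroups Q from ⟨hA, hmax⟩) : A ≤ Cfsg.thompsonSubgroupA Q) hzA

theorem kFun_isCharPFunctor (p : ℕ) [Fact p.Prime] : Cfsg.IsCharPFunctor.{u} p (fun Q => kFun Q) := by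
  classical
  refine ⟨fun Q _ _ hQ _ => ?_, fun Q R _ _ _ _ φ => ?_⟩
  · show kFun Q ≠ ⊥
    unfold kFun
    split_ifs with h
    · intro e
      exact (nontrivial_iff_ne_bot _).1 hQ.center_nontrivial (le_bot_iff.1 (e ▸ center_le_zjFun))
    · exact h
  · show (kFun Q).map φ.toMonoidHom = kFun R
    have hd := derMCL_equiv φ
    have hiff : derMCL Q = ⊥ ↔ derMCL R = ⊥ := by
      rw [← hd, map_eq_bot_iff_of_injective _ φ.injective]
    unfold kFun
    by_cases h : derMCL Q = ⊥
    · rw [if_pos h, if_pos (hiff.1 h), zjFun_equiv]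
    · rw [if_neg h, if_neg (mt hiff.2 h), hd]

theorem center_isCharPFunctor (p : ℕ) [Fact p.Prime] : Cfsg.IsCharPFunctor.{u} p (fun Q => center Q) :=
  ⟨fun Q _ _ hQ _ => (nontrivial_iff_ne_bot _).1 hQ.center_nontrivial,
    fun Q R _ _ _ _ φ => GN.map_center_equiv φ⟩

/-- Any minimal centrally large subgroup gives the derived subgroup. -/
theorem derMCL_eq [Finite Q] {P : Subgroup ↥(GN.jTilde Q)} (hP : Cfsg.IsMinimalCentrallyLarge P) :
    derMCL Q = (⁅P, P⁆ : Subgroup ↥(GN.jTilde Q)).map (GN.jTilde Q).subtype := by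
  rw [derMCL]
  congr 1
  exact le_antisymm (iSup_le fun R => (H74.minimal_commutator_eq R.2 hP).le)
    (le_iSup (fun R : {R : Subgroup ↥(GN.jTilde Q) // Cfsg.IsMinimalCentrallyLarge R} =>
      ⁅(R : Subgroup ↥(GN.jTilde Q)), (R : Subgroup ↥(GN.jTilde Q))⁆) ⟨P, hP⟩)

variable {G : Type u} [Group G] [Finite G] (S : Subgroup G)

theorem zjFun_map : (zjFun ↥S).map S.subtype = Cfsg.centerThompsonAOf S := by
  ext x
  constructor
  · rintro ⟨y, hy, rfl⟩
    refine ⟨⟨y, hy.1, rfl⟩, mem_centralizer_iff.2 ?_⟩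
    rintro _ ⟨w, hw, rfl⟩
    exact congrArg Subtype.val (mem_centralizer_iff.1 hy.2 w hw)
  · rintro ⟨⟨y, hy, rfl⟩, hx⟩
    exact ⟨y, ⟨hy, mem_centralizer_iff.2 fun w hw =>
      Subtype.ext (mem_centralizer_iff.1 hx _ ⟨w, hw, rfl⟩)⟩, rfl⟩

theorem jTilde_map : (GN.jTilde ↥S).map S.subtype = tilde S := by
  have e : zjFun ↥S = (Cfsg.centerThompsonAOf S).subgroupOf S := by
    rw [← zjFun_map, Subgroup.subgroupOf, comap_map_eq_self_of_injective S.subtype_injective]
  show (centralizer ((zjFun ↥S : Subgroup ↥S) : Set ↥S)).map S.subtype = _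
  rw [e, cent_map (H35.centerThompsonAOf_le S)]
  rfl

theorem derMCL_map {Q₀ : Subgroup ↥(tilde S)} (hQ₀ : Cfsg.IsMinimalCentrallyLarge Q₀) :
    (derMCL ↥S).map S.subtype = (⁅Q₀, Q₀⁆ : Subgroup ↥(tilde S)).map (tilde S).subtype := by
  let e : ↥(GN.jTilde ↥S) ≃* ↥(tilde S) :=
    ((GN.jTilde ↥S).equivMapOfInjective S.subtype S.subtype_injective).trans
      (MulEquiv.subgroupCongr (jTilde_map S))
  rw [derMCL_eq (GN.minimal_equiv e.symm hQ₀), map_commutator, map_commutator, map_commutator, map_map, map_map]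
  have h : (S.subtype.comp (GN.jTilde ↥S).subtype).comp e.symm.toMonoidHom = (tilde S).subtype :=
    MonoidHom.ext fun x => by
      show (((e.symm x : ↥(GN.jTilde ↥S)) : ↥S) : G) = (x : G)
      conv_rhs => rw [← e.apply_symm_apply x]
      rfl
  rw [h]

end Cfsg.Agent.H73.Focal
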