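import Cfsg.Agent.S1998
import Cfsg.Agent.H73.Focal.Three.Ab
import Cfsg.Agent.H73.Focal.Three.Functor
import Cfsg.Agent.H73.Focal.Three.Noncentral
import Cfsg.Agent.H73.Focal.Three.Shrink
import Mathlib

/-! Control of transfer by `Z(S)` and `K(S)` for odd primes. -/

set_option autoImplicit false
set_option linter.style.haveILetI false
set_option maxHeartbeats 1000000

namespace Cfsg.Agent.H73.Focal

open Subgroup
open scoped commutatorElement

universe u

variable {p : ℕ} [Fact p.Prime]

/-- Changing the homomorphism by an inner automorphism of `SL₂`. -/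
theorem Facts.conj {G : Type u} [Group G] [Finite G] {S : Sylow p G} {V X : Subgroup G} {F : Type} [Field F]
    [Fintype F] {φ : ↥X →* Matrix.SpecialLinearGroup (Fin 2) F} (h : Facts p S V X F φ)
    (g : Matrix.SpecialLinearGroup (Fin 2) F) : Facts p S V X F ((MulAut.conj g).toMonoidHom.comp φ) := by
  set θ := MulAut.conj g
  have h1 : ∀ x, θ.toMonoidHom.comp φ x = 1 ↔ φ x = 1 := fun x => by
    show θ (φ x) = 1 ↔ _
    exact map_eq_one_iff θ θ.injective
  have h2 : ∀ x, θ.toMonoidHom.comp φ x = -1 → φ x = -1 := fun x hx => by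
    refine θ.injective (hx.trans ?_)
    show _ = g * (-1) * g⁻¹
    rw [mul_neg, mul_one, neg_mul, mul_inv_cancel]
  refine ⟨θ.surjective.comp h.surj, fun x hx => (h1 x).2 (h.killC x hx),
    fun x hx e => h.cop_C x hx ((h1 x).1 e), fun z hz => h.cop_fix z (h2 z hz), h.exact,
    fun A hA a ha hne hAX => ?_, ?_⟩
  · rw [← Subgroup.map_map, card_map_of_injective θ.injective]
    exact h.full A hA a ha (fun e => hne ((h1 a).2 e)) hAX
  · obtain ⟨Vi, a, b, c, d⟩ := h.line
    exact ⟨Vi, a, b, fun x hx => c x ((h1 x).1 hx), fun y hy => d y fun e => hy ((h1 y).2 e)⟩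

/-- The two functors. -/
def twoFunctors : Set (∀ (Q : Type u) [Group Q], Subgroup Q) :=
  {fun Q [Group Q] => center Q, fun Q [Group Q] => kFun Q}

theorem center_map_subtype {G : Type u} [Group G] (S : Subgroup G) :
    (center ↥S).map S.subtype = S ⊓ centralizer (S : Set G) := by
  ext x
  constructor
  · rintro ⟨y, hy, rfl⟩
    exact ⟨y.2, mem_centralizer_iff.2 fun s hs => congrArg Subtype.val (Subgroup.mem_center_iff.1 hy ⟨s, hs⟩)⟩
  · rintro ⟨hx, hc⟩
    exact ⟨⟨x, hx⟩, Subgroup.mem_center_iff.2 fun s => Subtype.ext (mem_centralizer_iff.1 hc s s.2), rfl⟩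

/-- `Z(S)` and `K(S)` control transfer. -/
theorem trOK_two (hp2 : p ≠ 2) : ∀ (n : ℕ) (G : Type u) [Group G] [Finite G], Nat.card G = n →
    H61.TrOK p (twoFunctors.{u}) G := by
  intro n
  induction n using Nat.strong_induction_on with
  | _ n ih =>
    intro G _ _ hn
    classical
    have h𝓦 : ∀ W ∈ twoFunctors.{u}, Cfsg.IsCharPFunctor.{u} p W := by
      rintro W (rfl | rfl)
      · exact center_isCharPFunctor p
      · exact kFun_isCharPFunctor p
    by_contra hG
    obtain ⟨S, hfail⟩ : ∃ S : Sylow p G, ¬ H61.TrLe (H61.Wset G twoFunctors.{u}) (S : Subgroup G) ⊤ := by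
      by_contra hno
      push Not at hno
      exact hG hno
    have hsec : ∀ (K R : Subgroup G) [hR : (R.subgroupOf K).Normal], (K = ⊤ → R ≠ ⊥) →
        Cfsg.FamilyControlsTransferIn p
          ((fun W => Cfsg.inducedFunctor (G := (↥K ⧸ R.subgroupOf K)) W) '' twoFunctors.{u}) ⊤ := by
      intro K R hR hc
      refine H61.family_of_trOK (ih _ ?_ _ rfl)
      rw [← hn]
      rcases eq_or_ne K ⊤ with hK | hK
      · have hne : R.subgroupOf K ≠ ⊥ := by
          rw [Ne, subgroupOf_eq_bot, disjoint_iff, hK, inf_top_eq]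
          exact hc hK
        exact lt_of_lt_of_le (H19.card_quotient_lt _ hne) (card_le_card_group K)
      · exact lt_of_le_of_lt (Nat.card_le_card_of_surjective _ (QuotientGroup.mk'_surjective _))
          (H19.card_lt_of_ne_top K hK)
    have hnf : ¬ Cfsg.FamilyControlsTransferIn p
        ((fun W => Cfsg.inducedFunctor (G := G) W) '' twoFunctors.{u}) ⊤ :=
      fun h => hfail (H61.trOK_of_family h𝓦 h S)
    obtain ⟨T, hTdef⟩ : ∃ T : Subgroup G, T = ⨆ W ∈ twoFunctors.{u}, (S : Subgroup G) ⊓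
        ⁅normalizer ((Cfsg.inducedFunctor (G := G) W (S : Subgroup G) : Subgroup G) : Set G),
          normalizer ((Cfsg.inducedFunctor (G := G) W (S : Subgroup G) : Subgroup G) : Set G)⁆ := ⟨_, rfl⟩
    obtain ⟨M, hMdef⟩ : ∃ M : Subgroup G, M = normalizer ((T ⊓ Cfsg.pCore p G : Subgroup G) : Set G) := ⟨_, rfl⟩
    obtain ⟨hC, ⟨hM, hmax⟩, ⟨hQM, hQT⟩, hbad⟩ := S1998.result S twoFunctors.{u} h𝓦
      ⟨_, Or.inl rfl⟩ hsec hnf T M hTdef hMdef
    set S₀ : Subgroup G := (S : Subgroup G) with hS₀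
    haveI := H19.pCore_normal p G
    set Q := Cfsg.pCore p G with hQdef
    have hQS : Q ≤ S₀ := IsPGroup.le_sylow_of_normal (H19.pCore_isPGroup p) S
    have hnZ : ¬ (S₀ ⊓ centralizer (S₀ : Set G)).Normal := fun h =>
      hfail (H61.trLe_of_normal S₀ (W := fun Q [Group Q] => center Q) (Or.inl rfl) (by
        show ((center ↥S₀).map S₀.subtype).Normal
        rwa [center_map_subtype]))
    have hnK : ¬ ((kFun ↥S₀).map S₀.subtype).Normal := fun h =>
      hfail (H61.trLe_of_normal S₀ (W := fun Q [Group Q] => kFun Q) (Or.inr rfl) h)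
    obtain ⟨Q₀, hQ₀⟩ := H74.exists_minimalCentrallyLarge (G := ↥(tilde S₀))
    have hder := derMCL_map S₀ hQ₀
    have hzj : ¬ (Cfsg.centerThompsonAOf S₀).Normal := by
      intro hn'
      by_cases hD : derMCL ↥S₀ = ⊥
      · refine hnK ?_
        rw [kFun, if_pos hD, zjFun_map]
        exact hn'
      haveI := hn'
      set Dc := centralizer (Cfsg.centerThompsonAOf S₀ : Set G)
      haveI : Dc.Normal := inferInstance
      by_cases hDc : Dc ⊔ S₀ = ⊤
      · refine hnZ ⟨fun z hz g => ?_⟩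
        have hzJ : z ∈ Cfsg.centerThompsonAOf S₀ := by
          obtain ⟨A, hA⟩ := H72.exists_isMaxAb S₀
          refine ⟨hA.le_thompson (IsMaxAb.mem hA hz.1 fun a ha => mem_centralizer_iff.1 hz.2 a (hA.1 ha)), ?_⟩
          exact centralizer_le (SetLike.coe_subset_coe.2 (H35.thompsonSubgroupAOf_le S₀)) hz.2
        have hle : Dc ⊔ S₀ ≤ centralizer ({z} : Set G) := sup_le
          (centralizer_le (Set.singleton_subset_iff.2 hzJ))
          fun s hs => mem_centralizer_singleton_iff.2 (mem_centralizer_iff.1 hz.2 s hs)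
        rw [mem_centralizer_singleton_iff.1 (hle (hDc ▸ mem_top g)), mul_inv_cancel_right]
        exact hz
      · have hJQ : tilde S₀ ≤ Q := inf_le_pCore' hM hmax hDc
        have hJn : (tilde S₀).Normal := by
          rw [show tilde S₀ = Q ⊓ Dc from le_antisymm (le_inf hJQ inf_le_right) (inf_le_inf_right _ hQS)]
          infer_instance
        refine hnK ?_
        rw [kFun, if_neg hD, hder]
        haveI := GN.minimal_commutator_char hQ₀
        exact ConjAct.normal_of_characteristic_of_normal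
    by_cases hZJ : Cfsg.centerThompsonAOf S₀ ≤ Q
    swap
    · obtain ⟨u, hu, huQ⟩ := SetLike.not_le_iff_exists.1 hZJ
      have hq : ∀ U W : Subgroup G, Cfsg.IsChiefFactor U W → U ≤ Q → QuadMod u U W := fun U W hch hUQ x hx => by
        haveI := hch.2.2.1
        have hxn : x ∈ normalizer (Cfsg.centerThompsonAOf S₀ : Set G) :=
          H35.normalizer_le_normalizer_centerThompsonAOf _ (le_normalizer (hQS (hUQ hx)))
        have hm : ⁅x, u⁆ ∈ Cfsg.centerThompsonAOf S₀ := by
          rw [commutatorElement_def]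
          exact mul_mem ((mem_normalizer_iff.1 hxn u).1 hu) (inv_mem hu)
        rw [commutatorElement_eq_one_iff_mul_comm.2 (mem_centralizer_iff.1 hu.2 _ hm.1)]
        exact one_mem W
      obtain ⟨U, V, hUV, hUQ, hnot⟩ := hbad u (H35.centerThompsonAOf_le _ hu) huQ
      haveI := hUV.2.1
      haveI := hUV.2.2.1
      refine hnot (iterCommutator_le_of_le ?_ (iterCommutator_two_le (hq U V hUV hUQ)))
      have := (Fact.out : p.Prime).two_le
      omega
    obtain ⟨z, hzS, hzc, hzp, hzn⟩ := exists_noncentral hp2 hC hM hmax hnZ hzj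
    let Z : Subgroup G :=
      { carrier := {x | x ∈ S₀ ∧ x ∈ centralizer (S₀ : Set G) ∧ x ^ p = 1}
        one_mem' := ⟨one_mem _, one_mem _, one_pow _⟩
        mul_mem' := fun {x y} hx hy => ⟨mul_mem hx.1 hy.1, mul_mem hx.2.1 hy.2.1, by
          rw [(show Commute x y from mem_centralizer_iff.1 hy.2.1 x hx.1).mul_pow, hx.2.2, hy.2.2, one_mul]⟩
        inv_mem' := fun {x} hx => ⟨inv_mem hx.1, inv_mem hx.2.1, by rw [inv_pow, hx.2.2, inv_one]⟩ }
    have h0 : Hyp0 p S M := ⟨hC, hM, hmax,
      ⟨Z, fun x hx => hx.1, fun x hx => hx.2.1, fun x hx => hx.2.2, z, ⟨hzS, hzc, hzp⟩, hzn⟩, hzj⟩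
    obtain ⟨V, X, J, u, F, iF, iF', m, hm, hcard, d, L⟩ := exists_local hp2 h0 hZJ
    haveI : CharP F p := H72.charP_of_card hcard
    obtain ⟨r, c, i, hXL, hXc, hsurj, hall⟩ := L.hcoord
    have hf := exists_facts hp2 d c hXL hXc hsurj hall
    set φ₀ := (c.chi i).comp (Subgroup.inclusion hXL)
    obtain ⟨T', hT', hT''⟩ := L.syl.exists_sylow
    obtain ⟨g, hg⟩ := MulAction.exists_smul_eq (Matrix.SpecialLinearGroup (Fin 2) F)
      (T'.mapSurjective hf.surj) (H1.sylowSL (F := F) p)
    set φ := (MulAut.conj g).toMonoidHom.comp φ₀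
    have hφJ : (J.subgroupOf X).map φ = H1.upperUni F := by
      rw [← H1.coe_sylowSL (F := F) p, ← hg, ← Subgroup.map_map, ← hT'',
        ← Sylow.coe_mapSurjective hf.surj T']
      ext m'
      rw [H1.mem_smul_sylow, mem_map_equiv]
      simp [mul_assoc]
    have hSM : S₀ ≤ M := by
      by_cases h : S₀ = ⊤
      · refine absurd ?_ hnZ
        refine ⟨fun a ha b => ?_⟩
        rw [mem_centralizer_iff.1 ha.2 b (h ▸ mem_top b), mul_inv_cancel_right]
        exact ha
      · exact hmax S₀ le_rfl h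
    have C : Ctx p S V X J T F φ :=
      { facts := hf.conj g
        d := d
        hp2 := hp2
        hJeq := L.hJeq
        syl := L.syl
        hVJ := L.hVJ
        hQJ := L.hQJ
        hφJ := hφJ
        uniq := L.uniq
        hT := fun Y h1 h2 h3 q hq y hy =>
          ((hQM.trans hQT) (commutator_mem_commutator hq (L.hmaxX M hM hmax Y h1 h2 h3 hy))).2 }
    have htriv : Triv p X ⁅Q ⊓ X, pmIn φ⁆ (Q ⊓ X) := by
      obtain rfl := L.hJeq
      by_cases hD : derMCL ↥S₀ = ⊥
      · refine C.triv_ab hQ₀ ?_ fun hX => ?_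
        · rw [hD, Subgroup.map_bot, eq_comm, map_eq_bot_iff_of_injective _ (subtype_injective _)] at hder
          exact hder
        · have hn' : (Cfsg.thompsonSubgroupAOf S₀).Normal := by
            rw [← normalizer_eq_top_iff, ← top_le_iff, ← L.gen]
            exact sup_le hX (le_normalizer.trans (H72.normalizer_le_normalizer_thompsonSubgroupAOf S₀))
          haveI := hn'
          exact hzj (inferInstanceAs (Cfsg.thompsonSubgroupAOf S₀ ⊓
            centralizer ((Cfsg.thompsonSubgroupAOf S₀ : Subgroup G) : Set G)).Normal)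
      · refine C.triv_nonab hQ₀ fun hX => hnK ?_
        haveI : (derMCL ↥S₀).Characteristic := characteristic_iff_map_eq.2 fun θ => derMCL_equiv θ
        rw [kFun, if_neg hD, ← normalizer_eq_top_iff, ← top_le_iff, ← L.gen]
        exact sup_le (hder ▸ hX) (le_normalizer_map_subtype _)
    have hMN : M = normalizer ((T ⊓ Q : Subgroup G) : Set G) := hMdef
    have hXM : X ≤ M := by
      refine le_of_sylow_of_coprime (p := p) C.hJX C.syl.not_dvd (C.hJS.trans hSM) fun x hx hxp => ?_
      rw [hMN]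
      refine mem_normalizer_iff_map_conj_eq.2 (eq_of_le_of_card_ge ?_
        (card_map_of_injective (MulAut.conj x).injective).ge)
      rintro _ ⟨q, hq, rfl⟩
      show x * q * x⁻¹ ∈ T ⊓ Q
      have hc : ⁅x, q⁆ ∈ Q ⊓ X := ⟨by
        rw [commutatorElement_def]
        exact Q.mul_mem ((inferInstance : Q.Normal).conj_mem q hq.2 x) (Q.inv_mem hq.2), L.hQX x hx q hq.2⟩
      have hcR : ⁅x, q⁆ ∈ ⁅Q ⊓ X, pmIn φ⁆ :=
        comm_mem_of_twice' (H19.pCore_isPGroup (G := G) p) hxp hc.1 (C.R1_normal hc.2)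
          (htriv x hx hxp _ hc) (C.R1_normal hx)
      rw [show x * q * x⁻¹ = ⁅x, q⁆ * q by simp only [commutatorElement_def]; group]
      exact ⟨T.mul_mem (C.R1_le hcR) hq.1, Q.mul_mem hc.1 hq.2⟩
    exact hM (top_le_iff.1 (L.gen ▸ sup_le hXM hSM))

/-- The focal subgroup theorem with two normalisers, for odd primes. -/
theorem focal_two_normalizers (hp2 : p ≠ 2) {S : Type u} [Group S] [Finite S] [Nontrivial S]
    (hS : IsPGroup p S) :
    ∃ K : Subgroup S, K ≠ ⊥ ∧ K.Characteristic ∧ ∀ (G : Type u) [Group G] [Finite G] (τ : S →* G),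
      Function.Injective τ → (∃ P : Sylow p G, (P : Subgroup G) = τ.range) → ∀ g : G,
      g ∈ τ.range ⊓ commutator G ↔ ∃ a ∈ τ.range ⊓ ⁅Subgroup.centralizer ((τ.range ⊓ Subgroup.centralizer (τ.range : Set G) : Subgroup G) : Set G), Subgroup.centralizer ((τ.range ⊓ Subgroup.centralizer (τ.range : Set G) : Subgroup G) : Set G)⁆, ∃ b ∈ τ.range ⊓ ⁅Subgroup.normalizer ((K.map τ : Subgroup G) : Set G), Subgroup.normalizer ((K.map τ : Subgroup G) : Set G)⁆, g = a * b := by
  have hF := kFun_isCharPFunctor.{u} p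
  refine ⟨kFun S, hF.1 S hS inferInstance, characteristic_iff_map_eq.2 fun θ => hF.2 S S hS θ, ?_⟩
  intro G _ _ τ hτ hP g
  obtain ⟨P, hP⟩ := hP
  let e : S ≃* ↥τ.range := MonoidHom.ofInjective hτ
  have hK : (kFun ↥τ.range).map τ.range.subtype = (kFun S).map τ := by
    rw [← (show (kFun S).map e.toMonoidHom = kFun ↥τ.range from hF.2 S ↥τ.range hS e), Subgroup.map_map]
    rfl
  set R := τ.range with hR
  set Z := R ⊓ centralizer (R : Set G) with hZ
  set Cz := centralizer (Z : Set G)
  set NK := normalizer (((kFun S).map τ : Subgroup G) : Set G)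
  have hRP : R = (P : Subgroup G) := hP.symm
  have hle : R ⊓ commutator G ≤ (R ⊓ ⁅Cz, Cz⁆) ⊔ (R ⊓ ⁅NK, NK⁆) := by
    rw [_root_.commutator_def]
    have h1 : (P : Subgroup G) ⊓ ⁅(⊤ : Subgroup G), ⊤⁆ ≤ H61.Om (H61.Wset G twoFunctors.{u}) (P : Subgroup G) ⊤ :=
      trOK_two hp2 _ G rfl P
    rw [← hRP] at h1
    refine h1.trans (iSup₂_le ?_)
    rintro _ ⟨W, hW, rfl⟩
    simp only [top_inf_eq]
    rcases hW with rfl | rfl
    · show R ⊓ ⁅normalizer (((center ↥R).map R.subtype : Subgroup G) : Set G),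
        normalizer (((center ↥R).map R.subtype : Subgroup G) : Set G)⁆ ≤ _
      rw [center_map_subtype, ← hZ]
      have hPC : (P : Subgroup G) ≤ Cz := by
        rw [← hRP]; exact le_centralizer_iff.1 inf_le_right
      have h2 := inf_commutator_le_split P (C := Cz) (N := normalizer (Z : Set G)) hPC
        (centralizer_le_normalizer _) (fun x hx => by
          rw [mem_normalizer_iff_map_conj_eq]
          exact (H34.map_centralizer (MulAut.conj x) _).trans
            (congrArg (fun H : Subgroup G => centralizer (H : Set G)) (mem_normalizer_iff_map_conj_eq.1 hx)))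
      rw [← hRP] at h2
      refine h2.trans (sup_le_sup_left (inf_le_inf_left _ (commutator_mono ?_ ?_)) _) <;>
      · intro x hx
        have hR' : R.map (MulAut.conj x).toMonoidHom = R := mem_normalizer_iff_map_conj_eq.1 hx
        let θ : ↥R ≃* ↥R := ((MulAut.conj x).subgroupMap R).trans (MulEquiv.subgroupCongr hR')
        rw [mem_normalizer_iff_map_conj_eq, ← hK]
        conv_rhs => rw [← (show (kFun ↥R).map θ.toMonoidHom = kFun ↥R from hF.2 ↥R ↥R (hS.of_equiv e) θ), Subgroup.map_map]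
        rw [Subgroup.map_map]
        rfl
    · show R ⊓ ⁅normalizer (((kFun ↥R).map R.subtype : Subgroup G) : Set G),
        normalizer (((kFun ↥R).map R.subtype : Subgroup G) : Set G)⁆ ≤ _
      rw [hK]
      exact le_sup_right
  constructor
  · intro hg
    have h := hle hg
    have hRC : R ≤ Cz := le_centralizer_iff.1 inf_le_right
    have hn : R ⊓ ⁅NK, NK⁆ ≤ normalizer ((R ⊓ ⁅Cz, Cz⁆ : Subgroup G) : Set G) :=
      inf_le_left.trans (le_normalizer_inf' le_normalizer
        (hRC.trans (le_normalizer_comm le_normalizer le_normalizer)))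
    rw [← SetLike.mem_coe, coe_mul_of_right_le_normalizer_left _ _ hn] at h
    obtain ⟨a, ha, b, hb, e⟩ := h
    exact ⟨a, ha, b, hb, e.symm⟩
  · rintro ⟨a, ha, b, hb, rfl⟩
    rw [_root_.commutator_def]
    exact mul_mem (show a ∈ R ⊓ ⁅(⊤ : Subgroup G), ⊤⁆ from ⟨ha.1, commutator_mono le_top le_top ha.2⟩)
      (show b ∈ R ⊓ ⁅(⊤ : Subgroup G), ⊤⁆ from ⟨hb.1, commutator_mono le_top le_top hb.2⟩)

end Cfsg.Agent.H73.Focal
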