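import Cfsg.Agent.H73.Focal.Three.Ctx
import Cfsg.Agent.H74.CentrallyLargeStep
import Cfsg.Agent.H24.PGroupBasic
import Cfsg.Agent.H33.Frattini
import Cfsg.Agent.S3008
import Mathlib

/-! The case of a nonabelian minimal centrally large subgroup. -/

set_option autoImplicit false
set_option linter.style.haveILetI false
set_option maxHeartbeats 1000000

namespace Cfsg.Agent.H73.Focal

open Subgroup
open Cfsg.Agent.H72 (IsMaxAb)
open Cfsg.Agent.H75.SL2Natural (xu yl ww)
open scoped commutatorElement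

universe u

variable {G : Type u} [Group G] [Finite G]

omit [Finite G] in
/-- Centralisers inside a subgroup. -/
theorem cent_map {J R : Subgroup G} (hR : R ≤ J) :
    (centralizer ((R.subgroupOf J : Subgroup ↥J) : Set ↥J)).map J.subtype = J ⊓ centralizer (R : Set G) := by
  ext x
  constructor
  · rintro ⟨y, hy, rfl⟩
    exact ⟨y.2, mem_centralizer_iff.2 fun r hr =>
      congrArg Subtype.val (mem_centralizer_iff.1 hy ⟨r, hR hr⟩ hr)⟩
  · rintro ⟨hx, hxc⟩
    exact ⟨⟨x, hx⟩, mem_centralizer_iff.2 fun r hr => Subtype.ext (mem_centralizer_iff.1 hxc r hr), rfl⟩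

theorem card_cent_map {J R : Subgroup G} (hR : R ≤ J) :
    Nat.card ↥(centralizer ((R.subgroupOf J : Subgroup ↥J) : Set ↥J)) =
      Nat.card ↥(J ⊓ centralizer (R : Set G)) := by
  rw [← cent_map hR, card_map_of_injective J.subtype_injective]

theorem card_subgroupOf {J R : Subgroup G} (hR : R ≤ J) : Nat.card ↥(R.subgroupOf J) = Nat.card R :=
  Nat.card_congr (subgroupOfEquivOfLe hR).toEquiv

theorem cd_le_rel {J R : Subgroup G} (hR : R ≤ J) :
    Nat.card R * Nat.card ↥(J ⊓ centralizer (R : Set G)) ≤ Cfsg.maxCentralizerProduct ↥J := by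
  rw [← card_cent_map hR, ← card_subgroupOf hR]
  exact H74.cdMeasure_le _

variable {p : ℕ} [Fact p.Prime] {F : Type} [Field F] [Fintype F] [CharP F p]
variable {S : Sylow p G} {V X J T : Subgroup G} {φ : ↥X →* Matrix.SpecialLinearGroup (Fin 2) F}

namespace Ctx

variable (C : Ctx p S V X J T F φ)
include C

/-- `J` centralises the centre of its own Thompson subgroup. -/
theorem jTilde_top : centralizer ((Cfsg.thompsonSubgroupA ↥J ⊓
    centralizer (Cfsg.thompsonSubgroupA ↥J : Set ↥J) : Subgroup ↥J) : Set ↥J) = ⊤ := by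
  refine eq_top_iff.2 fun g _ => mem_centralizer_iff.2 fun y hy => Subtype.ext ?_
  have hJA : Cfsg.thompsonSubgroupAOf (S : Subgroup G) ≤ J := by
    rw [H72.thompsonSubgroupAOf_eq]
    exact sSup_le fun A hA => C.maxAb_le_J hA
  have heq := H72.thompsonSubgroupAOf_eq_of_le C.hJS hJA
  have hy' : (y : G) ∈ Cfsg.centerThompsonAOf (S : Subgroup G) := by
    rw [Cfsg.centerThompsonAOf, ← heq]
    refine ⟨⟨y, hy.1, rfl⟩, mem_centralizer_iff.2 ?_⟩
    rintro _ ⟨w, hw, rfl⟩
    exact congrArg Subtype.val (mem_centralizer_iff.1 hy.2 w hw)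
  have hg : (g : G) ∈ tilde (S : Subgroup G) := C.hJeq ▸ g.2
  exact mem_centralizer_iff.1 hg.2 _ hy'

/-- A normal minimal centrally large subgroup of `J`. -/
theorem exists_normal_minimal :
    ∃ Q : Subgroup ↥J, Cfsg.IsMinimalCentrallyLarge Q ∧ Q.Normal := by
  obtain ⟨h1, ⟨Q, hQ, hA, hM⟩, -⟩ := S3008.result ↥J C.hJp
  refine ⟨Q, hQ, normalizer_eq_top_iff.1 (top_le_iff.1 ?_)⟩
  rw [← C.jTilde_top]
  exact (h1 Q hQ.1).trans (sup_le le_normalizer hA)

/-- The minimal centrally large subgroups cannot lie in the kernel. -/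
theorem not_le_ker {Q : Subgroup ↥J} (hQ : Cfsg.IsMinimalCentrallyLarge Q)
    (hn : ¬ X ≤ normalizer (((⁅Q, Q⁆ : Subgroup ↥J).map J.subtype : Subgroup G) : Set G)) :
    ¬ Q.map J.subtype ≤ kerIn φ := by
  intro hle
  set N := Q.map J.subtype
  refine hn fun x hx => mem_normalizer_iff_map_conj_eq.2 ?_
  set N' := N.map (MulAut.conj x).toMonoidHom
  have hN'J : N' ≤ J := by
    refine le_trans ?_ (inf_le_left : J ⊓ kerIn φ ≤ J)
    rw [← mem_normalizer_iff_map_conj_eq.1 (C.P0_normal hx)]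
    exact map_mono (le_inf (map_subtype_le _) hle)
  let e : ↥(N'.subgroupOf J) ≃* ↥Q :=
    (subgroupOfEquivOfLe hN'J).trans ((((MulAut.conj x).subgroupMap N).symm).trans
      (Q.equivMapOfInjective J.subtype J.subtype_injective).symm)
  have hcard : Nat.card ↥(N'.subgroupOf J) = Nat.card Q := Nat.card_congr e.toEquiv
  have hCL : Cfsg.IsCentrallyLarge (N'.subgroupOf J) := by
    show _ * _ = _
    rw [hcard, Nat.card_congr (Subgroup.centerCongr e).toEquiv]
    exact hQ.1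
  have heq := congrArg (Subgroup.map J.subtype)
    (H74.minimal_commutator_eq (H74.minimal_of_card_eq hCL hQ hcard) hQ)
  rw [map_commutator, map_subgroupOf_eq_of_le hN'J] at heq
  conv_rhs => rw [← heq]
  rw [map_commutator, map_commutator]
  rfl

/-- The image of the centre of a normal minimal centrally large subgroup is everything. -/
theorem img_center {Q : Subgroup ↥J} (hQ : Cfsg.IsMinimalCentrallyLarge Q)
    (hnk : ¬ Q.map J.subtype ≤ kerIn φ) :
    H1.upperUni F ≤ ((J ⊓ centralizer ((Q.map J.subtype : Subgroup G) : Set G)).subgroupOf X).map φ := by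
  classical
  set N := Q.map J.subtype
  have hNJ : N ≤ J := map_subtype_le _
  have hQN : N.subgroupOf J = Q := comap_map_eq_self_of_injective J.subtype_injective Q
  obtain ⟨hcd, hCQ⟩ := H74.centrallyLarge_iff.1 hQ.1
  set ZN := J ⊓ centralizer (N : Set G)
  have hZNN : ZN ≤ N := by
    rw [show ZN = J ⊓ centralizer (N : Set G) from rfl, ← cent_map hNJ, hQN]
    exact map_mono hCQ
  set m := Cfsg.maxCentralizerProduct ↥J
  have hm : Nat.card N * Nat.card ZN = m := by
    rw [← card_subgroupOf hNJ, show ZN = J ⊓ centralizer (N : Set G) from rfl, ← card_cent_map hNJ, hQN]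
    exact hcd
  set q := Fintype.card F
  obtain ⟨Vi, hViV, hVicard, hVifix, hViline⟩ := C.facts.line
  have hViJ : Vi ≤ J := hViV.trans C.hVJ
  have hqpos : 0 < q := Fintype.card_pos
  set N₁ := N ⊓ kerIn φ
  have hN₁J : N₁ ≤ J := inf_le_left.trans hNJ
  have hNcard : Nat.card N ≤ Nat.card N₁ * q :=
    (C.card_eq_img (hNJ.trans C.hJX)).trans_le (Nat.mul_le_mul_left _ (C.card_img_le hNJ))
  have hfixVi : ∀ {g : G}, g ∈ kerIn φ → ∀ v ∈ Vi, g * v = v * g := fun {g} hg v hv => by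
    obtain ⟨h, e⟩ := mem_kerIn.1 hg
    exact mul_inv_eq_iff_eq_mul.1 (hVifix ⟨g, h⟩ e v hv)
  have hVicent : Vi ≤ centralizer (N₁ : Set G) := fun v hv =>
    mem_centralizer_iff.2 fun g hg => hfixVi hg.2 v hv
  -- meeting a centraliser of a moving element
  have hline : ∀ {H : Subgroup G} {a : G} (ha : a ∈ X), φ ⟨a, ha⟩ ≠ 1 → (∀ h ∈ H, a * h = h * a) →
      Nat.card ↥(H ⊓ Vi) ≤ q := fun {H a} ha hne hc =>
    (card_le_of_le (le_inf inf_le_right fun v hv => mem_centralizer_singleton_iff.2 (hc v hv.1).symm)).trans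
      (hViline ⟨a, ha⟩ hne)
  have hsup : ∀ {H : Subgroup G}, Nat.card ↥(H ⊓ Vi) ≤ q → Nat.card H * q ≤ Nat.card ↥(H ⊔ Vi) := by
    intro H hH
    have h1 := H75.card_mul_card_le H Vi
    rw [hVicard, ← mul_assoc] at h1
    refine Nat.le_of_mul_le_mul_right (c := q) ?_ hqpos
    exact h1.trans ((Nat.mul_le_mul_right _ hH).trans_eq (mul_comm _ _))
  obtain ⟨a, haN, hak⟩ := SetLike.not_le_iff_exists.1 hnk
  have haX : a ∈ X := C.hJX (hNJ haN)
  have hane : φ ⟨a, haX⟩ ≠ 1 := fun e => hak (mem_kerIn.2 ⟨haX, e⟩)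
  have haZ : ∀ h ∈ ZN, a * h = h * a := fun h hh => mem_centralizer_iff.1 hh.2 a haN
  have hZN₁ : ZN ⊔ Vi ≤ J ⊓ centralizer (N₁ : Set G) :=
    sup_le (inf_le_inf_left _ (centralizer_le (SetLike.coe_subset_coe.2 inf_le_left))) (le_inf hViJ hVicent)
  have hZcard := hsup (hline haX hane haZ)
  have hbound : Nat.card N₁ * Nat.card ↥(J ⊓ centralizer (N₁ : Set G)) ≤ m := cd_le_rel hN₁J
  have hchain : Nat.card N₁ * (Nat.card ZN * q) ≤ Nat.card N * Nat.card ZN :=
    hm ▸ ((Nat.mul_le_mul_left _ (hZcard.trans (card_le_of_le hZN₁))).trans hbound)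
  have hN₁ : Nat.card N₁ * q ≤ Nat.card N := by
    refine Nat.le_of_mul_le_mul_right ?_ (Nat.card_pos : 0 < Nat.card ZN)
    rwa [mul_assoc, mul_comm q]
  have hNeq : Nat.card N = Nat.card N₁ * q := le_antisymm hNcard hN₁
  -- the centre is not in the kernel
  have hZnk : ¬ ZN ≤ kerIn φ := by
    intro hZk
    have hE : ZN ⊔ Vi = J ⊓ centralizer (N₁ : Set G) := by
      refine eq_of_le_of_card_ge hZN₁ ?_
      refine le_trans ?_ hZcard
      refine Nat.le_of_mul_le_mul_left ?_ (Nat.card_pos : 0 < Nat.card N₁)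
      calc _ ≤ m := hbound
        _ = Nat.card N₁ * (Nat.card ZN * q) := by rw [← hm, hNeq]; ring
    have hcd₁ : Cfsg.IsCentralizerLarge (N₁.subgroupOf J) := by
      show _ * _ = _
      rw [card_subgroupOf hN₁J, card_cent_map hN₁J]
      refine le_antisymm hbound ?_
      calc m = Nat.card N₁ * (Nat.card ZN * q) := by rw [← hm, hNeq]; ring
        _ ≤ _ := Nat.mul_le_mul_left _ (hZcard.trans (card_le_of_le hZN₁))
    have habel : ZN ⊔ Vi ≤ centralizer ((ZN ⊔ Vi : Subgroup G) : Set G) := by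
      rw [H34.centralizer_sup_eq]
      refine sup_le (le_inf (fun z hz => mem_centralizer_iff.2 fun w hw => ?_) fun z hz => mem_centralizer_iff.2 fun w hw => ?_)
        (le_inf (fun v hv => mem_centralizer_iff.2 fun w hw => hfixVi (hZk hw) v hv)
          fun v hv => mem_centralizer_iff.2 fun w hw => C.d.comm w (hViV hw) v (hViV hv))
      · exact mem_centralizer_iff.1 hz.2 w (hZNN hw)
      · exact (hfixVi (hZk hz) w hw).symm
    have hle : ZN ⊔ Vi ≤ N₁ := fun g hg => by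
      have hgJ : g ∈ J := (hZN₁ hg).1
      have h : (⟨g, hgJ⟩ : ↥J) ∈ centralizer ((centralizer ((N₁.subgroupOf J : Subgroup ↥J) : Set ↥J) :
          Subgroup ↥J) : Set ↥J) := mem_centralizer_iff.2 fun y hy => Subtype.ext (by
        have : (y : G) ∈ ZN ⊔ Vi := hE.symm ▸ (cent_map hN₁J).le (mem_map_of_mem _ hy)
        exact mem_centralizer_iff.1 (habel hg) _ this)
      rw [(H74.cd_centralizer hcd₁).2] at h
      exact h
    have hCL₁ : Cfsg.IsCentrallyLarge (N₁.subgroupOf J) := H74.centrallyLarge_iff.2 ⟨hcd₁, fun y hy => by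
      show (y : G) ∈ N₁
      exact hle (hE.symm ▸ (cent_map hN₁J).le (mem_map_of_mem _ hy))⟩
    have e := hQ.2 (N₁.subgroupOf J) (fun y hy => hQN ▸ (hy.1 : y ∈ N.subgroupOf J)) hCL₁
    refine hnk fun y hy => ?_
    have : (⟨y, hNJ hy⟩ : ↥J) ∈ N₁.subgroupOf J := by rw [e, ← hQN]; exact hy
    exact this.2
  obtain ⟨b, hbZ, hbk⟩ := SetLike.not_le_iff_exists.1 hZnk
  have hbX : b ∈ X := C.hJX hbZ.1
  have hbne : φ ⟨b, hbX⟩ ≠ 1 := fun e => hbk (mem_kerIn.2 ⟨hbX, e⟩)
  set E := N₁ ⊔ Vi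
  have hEcard : Nat.card N ≤ Nat.card E := hNeq.le.trans
    (hsup (hline hbX hbne fun h hh => (mem_centralizer_iff.1 hbZ.2 h hh.1).symm))
  set Z₁ := ZN ⊓ kerIn φ
  have hCE : Z₁ ⊔ Vi ≤ J ⊓ centralizer (E : Set G) := by
    rw [show E = N₁ ⊔ Vi from rfl, H34.centralizer_sup_eq]
    refine sup_le (le_inf (inf_le_left.trans inf_le_left) (le_inf ?_ ?_))
      (le_inf hViJ (le_inf hVicent ?_))
    · exact inf_le_left.trans (inf_le_right.trans (centralizer_le (SetLike.coe_subset_coe.2 inf_le_left)))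
    · exact fun z hz => mem_centralizer_iff.2 fun v hv => (hfixVi hz.2 v hv).symm
    · exact fun v hv => mem_centralizer_iff.2 fun w hw => C.d.comm w (hViV hw) v (hViV hv)
  have hZ₁card := hsup (H := Z₁) (hline haX hane fun h hh => haZ h hh.1)
  have hZNX : ZN ≤ X := inf_le_left.trans C.hJX
  have hfinal : Nat.card N * (Nat.card Z₁ * q) ≤
      Nat.card N * (Nat.card Z₁ * Nat.card ↥((ZN.subgroupOf X).map φ)) :=
    calc Nat.card N * (Nat.card Z₁ * q) ≤ Nat.card E * Nat.card ↥(J ⊓ centralizer (E : Set G)) :=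
          Nat.mul_le_mul hEcard (hZ₁card.trans (card_le_of_le hCE))
      _ ≤ m := cd_le_rel (sup_le hN₁J hViJ)
      _ = _ := by rw [← hm, C.card_eq_img hZNX]
  have hq : q ≤ Nat.card ↥((ZN.subgroupOf X).map φ) :=
    Nat.le_of_mul_le_mul_left (Nat.le_of_mul_le_mul_left hfinal Nat.card_pos) Nat.card_pos
  exact (eq_of_le_of_card_ge (C.img_le inf_le_left) (by rw [H1.card_upperUni]; exact hq)).ge

/-- The nonabelian case. -/
theorem triv_nonab {Q₀ : Subgroup ↥J} (hQ₀ : Cfsg.IsMinimalCentrallyLarge Q₀)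
    (hn : ¬ X ≤ normalizer (((⁅Q₀, Q₀⁆ : Subgroup ↥J).map J.subtype : Subgroup G) : Set G)) :
    Triv p X ⁅Cfsg.pCore p G ⊓ X, pmIn φ⁆ (Cfsg.pCore p G ⊓ X) := by
  classical
  obtain ⟨Q, hQ, hQn⟩ := C.exists_normal_minimal
  rw [H74.minimal_commutator_eq hQ₀ hQ] at hn
  have himg := C.img_center hQ (C.not_le_ker hQ hn)
  set N := Q.map J.subtype
  have hNJ : N ≤ J := map_subtype_le _
  have hQN : N.subgroupOf J = Q := comap_map_eq_self_of_injective J.subtype_injective Q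
  set ZN := J ⊓ centralizer (N : Set G)
  have hZNN : ZN ≤ N := by
    rw [show ZN = J ⊓ centralizer (N : Set G) from rfl, ← cent_map hNJ, hQN]
    exact map_mono (H74.centrallyLarge_iff.1 hQ.1).2
  haveI := hQn
  have hJN : J ≤ normalizer (N : Set G) := le_normalizer_map_subtype Q
  have hJZ : J ≤ normalizer (ZN : Set G) :=
    le_normalizer_inf' le_normalizer (hJN.trans H33.normalizer_le_normalizer_centralizer)
  set O := Cfsg.pCore p G ⊓ X with hO
  set R₁ := ⁅O, pmIn φ⁆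
  obtain ⟨W, ⟨hRW, hWO, hXW, hWt⟩, hWmin⟩ := Set.exists_min_image
    {W : Subgroup G | R₁ ≤ W ∧ W ≤ O ∧ X ≤ normalizer (W : Set G) ∧ Triv p X W O} (fun W => Nat.card W)
    (Set.toFinite _) ⟨O, C.R1_le_O, le_rfl, C.hOn, fun x hx _ b hb => comm_mem_of_normalizes (C.hOn hx) hb⟩
  by_cases hWR : W = R₁
  · exact hWR ▸ hWt
  exfalso
  obtain ⟨W', ⟨hRW', hW'W, hW'ne, hXW'⟩, hW'max⟩ := Set.exists_max_image
    {W' : Subgroup G | R₁ ≤ W' ∧ W' ≤ W ∧ W' ≠ W ∧ X ≤ normalizer (W' : Set G)} (fun W => Nat.card W)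
    (Set.toFinite _) ⟨R₁, le_rfl, hRW, Ne.symm hWR, C.R1_normal⟩
  have hWX : W ≤ X := hWO.trans inf_le_right
  have hirr : ∀ H : Subgroup G, X ≤ normalizer (H : Set G) → W' ≤ H → H ≤ W → H = W' ∨ H = W := by
    intro H hH h1 h2
    by_cases e : H = W
    · exact Or.inr e
    · exact Or.inl (eq_of_le_of_card_ge h1 (hW'max H ⟨hRW'.trans h1, h2, e, hH⟩)).symm
  haveI hWn : (W.subgroupOf X).Normal := (normal_subgroupOf_iff_le_normalizer hWX).2 hXW
  let Φ : Subgroup ↥X := (frattini ↥(W.subgroupOf X)).map (W.subgroupOf X).subtype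
  haveI : Φ.Normal := ConjAct.normal_of_characteristic_of_normal
  have hΦW : Φ.map X.subtype ≤ W := by
    rintro _ ⟨_, ⟨y, -, rfl⟩, rfl⟩
    exact y.2
  have hWp : IsPGroup p ↥(W.subgroupOf X) := (C.hOp.to_le hWO).comap_subtype
  have hΦ : Φ.map X.subtype ≤ W' := by
    rcases hirr _ (le_normalizer_sup' hXW' (le_normalizer_map_subtype Φ)) le_sup_left (sup_le hW'W hΦW) with e | e
    · exact le_sup_right.trans e.le
    exfalso
    have h1 : (W'.subgroupOf X).subgroupOf (W.subgroupOf X) ⊔ frattini ↥(W.subgroupOf X) = ⊤ := by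
      refine map_injective (W.subgroupOf X).subtype_injective (map_injective X.subtype_injective ?_)
      rw [Subgroup.map_sup, map_subgroupOf_eq_of_le (H := W'.subgroupOf X) (K := W.subgroupOf X) (fun y hy => hW'W hy), Subgroup.map_sup,
        map_subgroupOf_eq_of_le (hW'W.trans hWX), e, ← MonoidHom.range_eq_map, range_subtype,
        map_subgroupOf_eq_of_le hWX]
    have h2 := frattini_nongenerating h1
    refine hW'ne (le_antisymm hW'W fun y hy => ?_)
    exact (subgroupOf_eq_top.1 h2 : W.subgroupOf X ≤ W'.subgroupOf X) (x := ⟨y, hWX hy⟩) hy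
  have hWJ : W ≤ J := hWO.trans C.hQJ
  have hlayer := C.layer_quad hWX hW'W hXW hXW'
    (fun a ha b hb => hΦ (by
      refine ⟨⁅(⟨a, hWX ha⟩ : ↥X), ⟨b, hWX hb⟩⁆, ?_, rfl⟩
      exact ⟨⁅(⟨⟨a, hWX ha⟩, ha⟩ : ↥(W.subgroupOf X)), ⟨⟨b, hWX hb⟩, hb⟩⁆,
        H24.commutator_le_frattini hWp (commutator_mem_commutator (mem_top _) (mem_top _)), rfl⟩))
    (fun a ha => hΦ ⟨(⟨a, hWX ha⟩ : ↥X) ^ p, ⟨(⟨⟨a, hWX ha⟩, ha⟩ : ↥(W.subgroupOf X)) ^ p,
      H24.pow_mem_frattini hWp _, rfl⟩, rfl⟩)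
    (fun k hk a ha => by
      rw [← commutatorElement_inv]
      exact inv_mem (hRW' (commutator_mem_commutator (hWO ha) hk)))
    hirr (As := ZN) (inf_le_left.trans C.hJX) himg
    (fun a ha b hb w hw => by
      have h1 : ⁅a, w⁆ ∈ ZN := by
        rw [← commutatorElement_inv]
        exact inv_mem (comm_mem_of_normalizes (hJZ (hWJ hw)) ha)
      rw [commutatorElement_eq_one_iff_mul_comm.2 (mem_centralizer_iff.1 h1.2 b (hZNN hb))]
      exact one_mem _)
  have ht : Triv p X W' O :=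
    triv_trans C.hOp inf_le_right le_rfl (hW'W.trans hWO) hXW' C.hOn (fun x hx _ w hw => hlayer x hx w hw) hWt
  exact hW'ne (eq_of_le_of_card_ge hW'W (hWmin W' ⟨hRW', hW'W.trans hWO, hXW', ht⟩))

end Ctx

end Cfsg.Agent.H73.Focal
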